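import Mathlib
set_option autoImplicit false

/-!
Automizers of abelian Sylow subgroups: the centralizer is normal in the normalizer, and a
non-trivial element of an abelian Sylow subgroup that is conjugate to its inverse forces the
index of the centralizer in the normalizer to be even (Burnside fusion).
-/

namespace CfsgLib.Automizer

/-- The centralizer of a subgroup is normal in its normalizer. -/
theorem centralizer_subgroupOf_normalizer_normal {G : Type*} [Group G] (H : Subgroup G) :
    ((Subgroup.centralizer (H : Set G)).subgroupOf (Subgroup.normalizer (H : Set G))).Normal := by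
  constructor
  intro c hc n
  rw [Subgroup.mem_subgroupOf, Subgroup.mem_centralizer_iff] at hc ⊢
  intro h hh
  have hn := Subgroup.mem_normalizer_iff.mp ((Subgroup.normalizer (H : Set G)).inv_mem n.2) h
  have hh' : (n : G)⁻¹ * h * (n : G)⁻¹⁻¹ ∈ (H : Set G) := hn.mp hh
  have h1 := hc _ hh'
  simp only [inv_inv] at h1
  push_cast
  calc h * ((n : G) * c * (n : G)⁻¹)
      = (n : G) * (((n : G)⁻¹ * h * n) * c) * (n : G)⁻¹ := by group
    _ = (n : G) * (c * ((n : G)⁻¹ * h * n)) * (n : G)⁻¹ := by rw [h1]
    _ = ((n : G) * c * (n : G)⁻¹) * h := by group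

/-- An element of `N(H)` inverting an element `x ≠ x⁻¹` of `H` makes `[N(H) : C(H)]` even. -/
theorem even_index_of_inverting {G : Type*} [Group G] (H : Subgroup G) (x : G) (hx : x ∈ H)
    (hne : x⁻¹ ≠ x) (n : G) (hn : n ∈ Subgroup.normalizer (H : Set G)) (hinv : n * x * n⁻¹ = x⁻¹) :
    2 ∣ ((Subgroup.centralizer (H : Set G)).subgroupOf (Subgroup.normalizer (H : Set G))).index := by
  set C := (Subgroup.centralizer (H : Set G)).subgroupOf (Subgroup.normalizer (H : Set G)) with hC
  have : C.Normal := centralizer_subgroupOf_normalizer_normal H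
  by_contra hodd
  have hmem : (⟨n, hn⟩ : Subgroup.normalizer (H : Set G)) ^ C.index ∈ C := Subgroup.pow_index_mem _ _
  rw [hC, Subgroup.mem_subgroupOf, Subgroup.mem_centralizer_iff, SubmonoidClass.coe_pow] at hmem
  have hcomm := hmem x hx
  rw [← hC] at hcomm
  have hpow : ∀ k : ℕ, n ^ k * x * (n ^ k)⁻¹ = if Even k then x else x⁻¹ := by
    intro k
    induction k with
    | zero => simp
    | succ k ih =>
      have e : n ^ (k + 1) * x * (n ^ (k + 1))⁻¹ = n * (n ^ k * x * (n ^ k)⁻¹) * n⁻¹ := by
        rw [pow_succ']; group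
      rw [e, ih]
      by_cases hk : Even k
      · rw [if_pos hk, if_neg (by simp [Nat.even_add_one, hk]), hinv]
      · rw [if_neg hk, if_pos (by simp [Nat.even_add_one, hk])]
        calc n * x⁻¹ * n⁻¹ = (n * x * n⁻¹)⁻¹ := by group
          _ = x := by rw [hinv, inv_inv]
  have h2 := hpow C.index
  have h3 : n ^ C.index * x * (n ^ C.index)⁻¹ = x := by rw [← hcomm]; group
  have hk : ¬ Even C.index := fun h => hodd (even_iff_two_dvd.mp h)
  rw [if_neg hk, h3] at h2
  exact hne h2.symm

/-- A real element `x ≠ x⁻¹` of an abelian Sylow subgroup makes the automizer even. -/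
theorem even_index_of_real {G : Type*} [Group G] [Finite G] {p : ℕ} [Fact p.Prime] (P : Sylow p G)
    (hP : IsMulCommutative (P : Subgroup G)) (x : G) (hx : x ∈ (P : Subgroup G)) (hne : x⁻¹ ≠ x)
    (hreal : IsConj x x⁻¹) :
    2 ∣ ((Subgroup.centralizer ((P : Subgroup G) : Set G)).subgroupOf
      (Subgroup.normalizer ((P : Subgroup G) : Set G))).index := by
  obtain ⟨g, hg⟩ := isConj_iff.mp hreal
  have : IsMulCommutative P := hP
  have hy : g⁻¹⁻¹ * x * g⁻¹ ∈ P := by
    rw [inv_inv, hg]; exact (P : Subgroup G).inv_mem hx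
  obtain ⟨n, hn, h⟩ := P.conj_eq_normalizer_conj_of_mem x g⁻¹ hx hy
  rw [inv_inv, hg] at h
  exact even_index_of_inverting (P : Subgroup G) x hx hne n⁻¹
    ((Subgroup.normalizer _).inv_mem hn) (by rw [inv_inv, ← h])

end CfsgLib.Automizer
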